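import Cfsg.Agent.H586.NX.Defs

/-!
# S4816, layer (B), `q = p`: the interface (helper20)

* `XB p r n Q X B` : the data of the structural half (`H20/RIM/BData`, helper20), `s = 2`; `r` is an auxiliary prime
  (`SX` of S4979 has a second prime not dividing `|Y|`).
* `AS r n Q X B` : what the numerical half for `p = 3` uses (`as_of_XB`); everything about `W` is in the fields
  `cnt`, `big`, `fixd`, `qf`.

The boxes (pure statements about `Y`, `U`, `B`):

* `kill9 : AS r n Q X B → 9 ≤ Q → False`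
* `kill6 : AS r 6 3 X B → False`, `kill5 : AS r 5 3 X B → False`, `kill4 : AS r 4 3 X B → False`
* `kill3 : AS r 3 3 X B → Sm X`, `kill2 : AS r 2 3 X B → Sm X`
* `p2_kill` : `P2Kill`
-/

set_option autoImplicit false

open Cfsg
open scoped commutatorElement

namespace Cfsg.Agent.H20.RIM

open Cfsg.Agent.H586.NX

universe u

/-- The data of layer (B) for `q = p`, `s = 2`. -/
structure XB (p r n Q : ℕ) {G W Y U : Type*} [Group G] [Finite G] [AddCommGroup W] [Finite W]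
    [DistribMulAction G W] [Group Y] [Finite Y] [AddCommGroup U] [Finite U] [DistribMulAction Y U]
    (L Z : Subgroup G) (π : G →* Y) (a : L →* Multiplicative U) (X : Subgroup Y) (B : U → U → ZMod 2) : Prop where
  S : SX (U := U) p r 2 n X B
  h : LB (W := W) p p 2 n L Z π a B
  hW : Nat.card W = Q ^ (2 ^ n)
  Qf : ∃ f, 1 ≤ f ∧ Q = p ^ f
  /-- conjugate elements of `U` have lifts with the same square -/
  sqr : ∀ (y : Y) (l l' : L), Multiplicative.toAdd (a l') = y • Multiplicative.toAdd (a l) →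
    ∃ z ∈ Z, ∀ w : W, (l' : G) • (l' : G) • z • z • w = (l : G) • (l : G) • w
  nX : X.Normal
  simp : IsSimpleGroup (Y ⧸ X)
  na : ¬ IsMulCommutative (Y ⧸ X)
  pS : p ∣ Nat.card (Y ⧸ X)

/-- The abstract situation for `p = 3`. `SX 3 r 2 n X B` : see `H586/NX/Defs` (`Y` perfect, faithful and irreducible on the
symplectic space `(U, B)` of order `4 ^ n`, `X` the largest proper normal subgroup, `3 ∤ |X|`); the prime `r ≠ 3` with `r ∤ |Y|`
is without meaning. -/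
structure AS (r n Q : ℕ) {Y U : Type*} [Group Y] [Finite Y] [AddCommGroup U] [Finite U] [DistribMulAction Y U]
    (X : Subgroup Y) (B : U → U → ZMod 2) : Prop where
  S : SX (U := U) 3 r 2 n X B
  Qf : ∃ f, 1 ≤ f ∧ Q = 3 ^ f
  n2 : 2 ≤ n
  n6 : n ≤ 6
  nX : X.Normal
  simp : IsSimpleGroup (Y ⧸ X)
  na : ¬ IsMulCommutative (Y ⧸ X)
  pS : 3 ∣ Nat.card (Y ⧸ X)
  /-- the counting inequality; `Q ^ (2 ^ (n - j) * k)` is the number of fixed vectors in `W` -/
  cnt : ∀ y : Y, orderOf y = 3 → ∀ j ≤ n, Nat.card {u : U // y • u = u} = 2 ^ (2 * (n - j)) →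
    ∃ k, 3 * k ≤ 2 ^ j + 2 ∧
      Q ^ (2 ^ n) ≤ 4 ^ j * (Subgroup.normalizer ((Subgroup.zpowers y : Subgroup Y) : Set Y)).index * Q ^ (2 ^ (n - j) * k)
  /-- a big isotropic subgroup stabilised by a Sylow subgroup -/
  big : ∃ (P : Sylow 3 Y) (T : AddSubgroup U) (i : ℕ), (i = n ∨ i + 1 = n) ∧ Nat.card T = 2 ^ i ∧
    (∀ u ∈ T, ∀ v ∈ T, B u v = 0) ∧ (∀ m ∈ P, ∀ t ∈ T, m • t ∈ T)
  /-- the Sylow subgroups have fixed vectors -/
  fixd : (9 ≤ Q ∨ 4 ≤ n) → ∀ P : Sylow 3 Y, ∃ u : U, u ≠ 0 ∧ ∀ x ∈ P, x • u = u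
  /-- the quadratic form for `Q = 3` -/
  qf : Q = 3 → ∃ q : U → ZMod 2, (∀ u v, q (u + v) = q u + q v + B u v) ∧ (∀ (y : Y) (u : U), q (y • u) = q u) ∧
    ∃ (P : Sylow 3 Y) (T : AddSubgroup U) (i : ℕ), Nat.card T = 2 ^ i ∧ (∀ u ∈ T, ∀ v ∈ T, B u v = 0) ∧
      (∀ m ∈ P, ∀ t ∈ T, m • t ∈ T) ∧ (∀ t ∈ T, q t = 0) ∧
      (i = n ∨ (i + 1 = n ∧ ∀ u, (∀ t ∈ T, B u t = 0) → u ∉ T → q u = 1))

/-- what remains -/
def Sm {Y : Type*} [Group Y] (X : Subgroup Y) : Prop :=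
  (Nat.card (Y ⧸ X) = 60 ∧ ¬ 5 ∣ Nat.card X) ∨ (Nat.card (Y ⧸ X) = 168 ∧ ¬ 7 ∣ Nat.card X)

/-- the character theoretic end: a group `H` whose irreducible characters over `φ` all have degree prime to `3` does not have
a simple quotient `H / K` of order `60` or `168` if `|K : Z(H)|` is prime to `5`, `7` respectively -/
def P2Kill : Prop :=
  ∀ {H : Type u} [Group H] [Finite H] (K N : Subgroup H) [K.Normal] (φ : N →* ℂˣ), IsSimpleGroup (H ⧸ K) →
    N ≤ Subgroup.center H → Subgroup.center H ≤ K → commutator H = ⊤ → ¬ 3 ∣ Nat.card K →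
    (∀ χ : H → ℂ, IsIrrCharacter H χ → (∀ n : N, χ n = χ 1 * φ n) → ¬ 3 ∣ charDegree χ) →
    ((Nat.card (H ⧸ K) = 60 ∧ ¬ 5 ∣ (Subgroup.center H).relIndex K) ∨
      (Nat.card (H ⧸ K) = 168 ∧ ¬ 7 ∣ (Subgroup.center H).relIndex K)) → False

end Cfsg.Agent.H20.RIM
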