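import Cfsg.Agent.H20.RIM.BDataP
import Cfsg.Agent.H20.NX.BLayer

/-!
# S4816, layer (B), `q = p`: quasi-primitivity (helper20)
-/

set_option autoImplicit false

open Cfsg
open scoped commutatorElement

namespace Cfsg.Agent.H20.RIM

open Cfsg.Agent.H662.GW Cfsg.Agent.H511.Wt Cfsg.Agent.H229.NX Cfsg.Agent.H229.RIM
open Cfsg.Agent.H20.NX (ExtraSp QPE)

universe u

/-- a primitive core is quasi-primitive -/
theorem qpe_of_not_impP {p : ℕ} {H V : Type u} [Group H] [Finite H] [AddCommGroup V] [Finite V]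
    [DistribMulAction H V] {K N : Subgroup H} {φ : N →* ℂˣ} (C : CoreP (V := V) p K N φ) (h : ¬ ImpP H V)
    (E : Subgroup H) : QPE V N E := by
  intro M hM _ W hW hWM m hm hmW
  by_contra hmN
  have h1 : ∃ v : V, m • v ≠ v := by
    by_contra h2
    push Not at h2
    exact hmN ((C.ker m).1 h2)
  obtain ⟨v₀, hv₀⟩ := h1
  exact h (impP_of_trivial ⟨C.nt, C.irr⟩ M hM W hW hWM hm hmW hv₀)

end Cfsg.Agent.H20.RIM
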